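import Cfsg.Agent.Sg.Gen

/-! Signalizer functors on elementary abelian `2`-groups of rank at least `4`: basic facts. -/

set_option autoImplicit false

namespace Cfsg.Agent.Sg

open Subgroup Cfsg.Agent.FT Cfsg.Agent.H1 Cfsg.Agent.L
open scoped Pointwise commutatorElement

variable {G : Type*} [Group G]

/-- a signalizer functor on an elementary abelian `2`-group of order at least `16` -/
structure SF (A : Subgroup G) (θ : G → Subgroup G) : Prop where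
  sq : Sq A
  big : 16 ≤ #|A|
  odd : ∀ a ∈ A, a ≠ 1 → Odd #|θ a|
  cent : ∀ a ∈ A, a ≠ 1 → θ a ≤ 𝐂[a]
  norm : ∀ a ∈ A, a ≠ 1 → A ≤ 𝐍(θ a)
  bal : ∀ a ∈ A, a ≠ 1 → ∀ b ∈ A, b ≠ 1 → θ a ⊓ 𝐂[b] ≤ θ b

/-- a `θ`-subgroup -/
structure Mem (A : Subgroup G) (θ : G → Subgroup G) (X : Subgroup G) : Prop where
  odd : Odd #|X|
  norm : A ≤ 𝐍(X)
  le : ∀ a ∈ A, a ≠ 1 → X ⊓ 𝐂[a] ≤ θ a

def Complete (A : Subgroup G) (θ : G → Subgroup G) : Prop :=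
  ∃ W, Mem A θ W ∧ ∀ X, Mem A θ X → X ≤ W

/-- the join of the `θ`-subgroups normalising `X` -/
def nN (A : Subgroup G) (θ : G → Subgroup G) (X : Subgroup G) : Subgroup G :=
  sSup {Y | Mem A θ Y ∧ Y ≤ 𝐍(X)}

/-- `θ(C(A))` -/
def dd (A : Subgroup G) (θ : G → Subgroup G) : Subgroup G :=
  𝐂(A) ⊓ ⨅ a ∈ A, ⨅ _ : a ≠ 1, θ a

/-- maximal `θ`-subgroups that are `q`-groups -/
structure Mx (A : Subgroup G) (θ : G → Subgroup G) (q : ℕ) (S : Subgroup G) : Prop where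
  mem : Mem A θ S
  pg : IsPGroup q S
  max : ∀ T, Mem A θ T → IsPGroup q T → S ≤ T → T = S

variable {A B H K N R S T U X Y : Subgroup G} {θ : G → Subgroup G} {q : ℕ}

theorem SF.mem (h : SF A θ) {a : G} (ha : a ∈ A) (h1 : a ≠ 1) : Mem A θ (θ a) :=
  ⟨h.odd a ha h1, h.norm a ha h1, h.bal a ha h1⟩

theorem Mem.of_le (h : Mem A θ X) (hY : Y ≤ X) (hn : A ≤ 𝐍(Y)) : Mem A θ Y :=
  ⟨odd_of_le h.odd hY, hn, fun a ha h1 => (inf_le_inf_right _ hY).trans (h.le a ha h1)⟩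

theorem Mem.le_of_cent (h : Mem A θ X) {a : G} (ha : a ∈ A) (h1 : a ≠ 1) (hc : X ≤ 𝐂[a]) :
    X ≤ θ a := (le_inf le_rfl hc).trans (h.le a ha h1)

theorem Mem.inf (h : Mem A θ X) (hY : A ≤ 𝐍(Y)) : Mem A θ (X ⊓ Y) :=
  h.of_le inf_le_left (le_normalizer_inf h.norm hY)

theorem Mem.core (h : Mem A θ X) (π : Set ℕ) : Mem A θ (core π X) :=
  h.of_le (core_le _ _) (le_norm_core h.norm π)

theorem le_norm_bot : A ≤ 𝐍((⊥ : Subgroup G)) := le_top.trans norm_bot.ge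

theorem Mem.bot : Mem A θ ⊥ := ⟨by simp, le_norm_bot, fun _ _ _ => by simp⟩

theorem nN_le : nN A θ X ≤ 𝐍(X) := sSup_le fun _ h => h.2

theorem Mem.le_nN (h : Mem A θ Y) (hn : Y ≤ 𝐍(X)) : Y ≤ nN A θ X := le_sSup ⟨h, hn⟩

theorem dd_le {a : G} (ha : a ∈ A) (h1 : a ≠ 1) : dd A θ ≤ θ a :=
  inf_le_right.trans ((iInf₂_le a ha).trans (iInf_le _ h1))

theorem Mem.le_dd (h : Mem A θ X) : X ⊓ 𝐂(A) ≤ dd A θ :=
  le_inf inf_le_right (le_iInf₂ fun a ha => le_iInf fun h1 =>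
    (inf_le_inf_left _ (cent_le_cent1 ha)).trans (h.le a ha h1))

theorem norm_conj_of_cent {d : G} (hd : d ∈ 𝐂(A)) (h : A ≤ 𝐍(X)) : A ≤ 𝐍(d ⋆ X) := by
  rw [← conj_norm, ← conj_of_mem_norm (cent_le_norm A hd)]
  exact conj_mono d h

theorem Mem.conj (h : Mem A θ X) {d : G} (hd : d ∈ dd A θ) : Mem A θ (d ⋆ X) := by
  refine ⟨by rw [card_conj]; exact h.odd, norm_conj_of_cent hd.1 h.norm, fun a ha h1 => ?_⟩
  rw [← conj_of_mem (cent_le_cent1 ha hd.1), ← conj_inf, ← conj_of_mem (dd_le ha h1 hd)]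
  exact conj_mono d (h.le a ha h1)

theorem Mx.conj (h : Mx A θ q S) {d : G} (hd : d ∈ dd A θ) : Mx A θ q (d ⋆ S) :=
  ⟨h.mem.conj hd, pgroup_conj h.pg d, fun T h1 h2 h3 => by
    rw [← h.max _ (h1.conj (inv_mem hd)) (pgroup_conj h2 _) (conj_le_iff.1 h3), conj_inv_conj]⟩

variable [Finite G]

theorem Mem.sol (h : Mem A θ X) : Group.IsSolvable X := sol_of_odd h.odd

theorem Mem.sup (hA : Sq A) (hX : Mem A θ X) (hY : Mem A θ Y) (hn : X ≤ 𝐍(Y)) :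
    Mem A θ (X ⊔ Y) := by
  refine ⟨odd_sup hX.odd hY.odd (Or.inl hn), le_normalizer_sup hX.norm hY.norm, fun a ha h1 => ?_⟩
  have hz := zpowers_le.2 ha
  rw [← cent_zpowers, sup_inf_cent (hz.trans hX.norm) (hz.trans hY.norm) hn (hA.of_le hz).two hY.odd,
    cent_zpowers]
  exact sup_le (hX.le a ha h1) (hY.le a ha h1)

theorem Mem.le_of (h : Mem A θ X) (hA : Sq A) (hB : B ≤ A) (h4 : 4 ≤ #|B|)
    (hH : ∀ b ∈ B, b ≠ 1 → θ b ≤ H) : X ≤ H :=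
  gen1 (hA.of_le hB) h4 (hB.trans h.norm) h.odd fun b hb h1 => (h.le b (hB hb) h1).trans (hH b hb h1)

theorem Mem.exists_sylow (hA : Sq A) (hq : q.Prime) (h : Mem A θ H) (hR : R ≤ H) (hp : IsPGroup q R)
    (hn : A ≤ 𝐍(R)) : ∃ P, IsSylowIn q P H ∧ R ≤ P ∧ Mem A θ P := by
  haveI := Fact.mk hq
  obtain ⟨P, h1, h2, h3⟩ := exists_invariant_isSylowIn_ge h.norm (hA.cop h.odd) (Or.inr h.sol) hR hp hn
  exact ⟨P, h1, h2, h.of_le h1.le h3⟩

theorem Mem.exists_mx (h : Mem A θ R) (hp : IsPGroup q R) : ∃ S, Mx A θ q S ∧ R ≤ S := by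
  obtain ⟨S, ⟨h1, h2, h3⟩, h4⟩ := wellFounded_gt.has_min
    {S | Mem A θ S ∧ IsPGroup q S ∧ R ≤ S} ⟨R, h, hp, le_rfl⟩
  exact ⟨S, ⟨h1, h2, fun T a b c => (c.eq_of_not_lt (h4 T ⟨a, b, h3.trans c⟩)).symm⟩, h3⟩

theorem exists_ne_one_mem_inf (hA : Sq A) (h8 : 8 ≤ #|A|) {B' : Subgroup G} (hB : B ≤ A) (hB' : B' ≤ A)
    (h1 : #|A| ≤ 2 * #|B|) (h2 : #|A| ≤ 2 * #|B'|) : B ⊓ B' ≠ ⊥ := fun e => by
  have h3 := (setProd_sup (A := B) (B := B') (Or.inl (le_norm_of_le_cent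
    (hB'.trans (le_cent_of_le hA.cent hB))))).card
  rw [e, card_bot] at h3
  have h4 := card_le_of_le' (sup_le hB hB')
  nlinarith

/-- local completeness, from completeness in `N(X) / X` -/
theorem mem_nN (h : SF A θ) (hX : Mem A θ X)
    (ih : ∀ θ' : Quo X → Subgroup (Quo X), SF (A /' X) θ' → Complete (A /' X) θ') :
    Mem A θ (nN A θ X) := by
  have hd := inf_eq_bot_of_two h.sq.two hX.odd
  let θ' : Quo X → Subgroup (Quo X) := fun y =>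
    ⨆ a : 𝐍(X), ⨆ _ : (a : G) ∈ A ∧ coset X a = y, θ a /' X
  have h1 : ∀ a : 𝐍(X), (a : G) ∈ A → θ' (coset X a) = θ a /' X := fun a ha =>
    le_antisymm (iSup₂_le fun b hb => by
      have : ((b⁻¹ * a : 𝐍(X)) : G) ∈ X ⊓ A := ⟨coset_eq_one.1 (by rw [map_mul, map_inv, hb.2,
        inv_mul_cancel]), A.mul_mem (A.inv_mem hb.1) ha⟩
      rw [hd, mem_bot, OneMemClass.coe_eq_one, inv_mul_eq_one] at this
      rw [this]) (le_iSup₂_of_le a ⟨ha, rfl⟩ le_rfl)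
  have h2 : ∀ a : 𝐍(X), coset X a ≠ 1 → (a : G) ≠ 1 := fun a h e =>
    h (by rw [show a = 1 from Subtype.ext e, map_one])
  have h3 : ∀ Y, Mem A θ Y → ∀ b : 𝐍(X), (b : G) ∈ A → coset X b ≠ 1 →
      Y /' X ⊓ 𝐂[coset X b] ≤ θ' (coset X b) := fun Y hY b hb b1 => by
    rw [h1 b hb, ← mim_inf_dom, quo_inf_cent1' (le_normalizer_inf hY.norm
      (hX.norm.trans (norm_le_norm_norm X)) hb) inf_le_right (h.sq _ hb) hX.odd]
    exact mim_mono _ ((inf_le_inf_right _ inf_le_left).trans (hY.le _ hb (h2 b b1)))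
  obtain ⟨W, hW, hW'⟩ := ih θ' (by
    refine ⟨h.sq.mim _, by rw [card_quo_of_disjoint hX.norm hd]; exact h.big, ?_, ?_, ?_, ?_⟩ <;>
      intro a ha' a1 <;> obtain ⟨a, ha, rfl⟩ := mem_mim.1 ha' <;> rw [h1 a ha]
    · exact odd_mim (h.odd a ha (h2 a a1)) _
    · exact (mim_mono _ (h.cent a ha (h2 a a1))).trans (mim_cent1_le _ a)
    · exact mim_le_norm _ (h.norm a ha (h2 a a1))
    · intro b hb' b1
      obtain ⟨b, hb, rfl⟩ := mem_mim.1 hb'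
      exact h3 _ (h.mem ha (h2 a a1)) b hb b1)
  have h4 : Mem A θ (mpre (coset X) W) := by
    refine ⟨by rw [card_mpre_coset]; exact hW.odd.mul hX.odd, le_norm_mpre hX.norm hW.norm,
      fun a ha a1 => ?_⟩
    have a2 : coset X ⟨a, hX.norm ha⟩ ≠ 1 := fun e => a1 (mem_bot.1 (hd ▸ ⟨coset_eq_one.1 e, ha⟩))
    have h5 := hW.le _ (mem_mim_of_mem _ ⟨a, hX.norm ha⟩ ha) a2
    rw [h1 _ ha, ← mim_inf_dom] at h5
    have h6 := (quo_le_quo_iff' (inf_le_left.trans (mpre_le _ _)) inf_le_right).1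
      (((mim_inf_le _ _ _).trans (inf_le_inf (mim_mpre_le _ W) (mim_cent1_le _ _))).trans h5)
    exact (le_inf h6 inf_le_right).trans ((((h.mem ha a1).inf
      (hX.norm.trans (norm_le_norm_norm X))).sup h.sq hX inf_le_right).le a ha a1)
  have h5 : nN A θ X ≤ mpre (coset X) W := sSup_le fun Y hY => le_mpre_of_mim_le hY.2 (hW' _
    ⟨odd_mim hY.1.odd _, mim_le_norm _ hY.1.norm, fun b hb' b1 => by
      obtain ⟨b, hb, rfl⟩ := mem_mim.1 hb'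
      exact h3 Y hY.1 b hb b1⟩)
  exact le_antisymm h5 (h4.le_nN (mpre_le _ _)) ▸ h4

/-- local completeness -/
def Loc (A : Subgroup G) (θ : G → Subgroup G) : Prop :=
  ∀ X, Mem A θ X → X ≠ ⊥ → Mem A θ (nN A θ X)

theorem lt_inf_norm (hq : q.Prime) (hS : IsPGroup q S) (h : R < S) : R < S ⊓ 𝐍(R) :=
  lt_inf_norm_of_nil (pgroup_nil hq hS) h

theorem Mx.inf_lt (hS : Mx A θ q S) (hT : Mx A θ q T) (h : S ≠ T) : S ⊓ T < S :=
  inf_lt_left.2 fun e => h (hS.max T hT.mem hT.pg e).symm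

theorem Mx.exists_conj (h : SF A θ) (hl : Loc A θ) (hq : q.Prime) (hS : Mx A θ q S)
    (hT : Mx A θ q T) : ∃ d ∈ dd A θ, d ⋆ S = T := by
  induction hn : Nat.card G - #|S ⊓ T| using Nat.strong_induction_on generalizing S T with
  | _ n ih =>
  by_cases e : S = T
  · exact ⟨1, one_mem _, by rw [one_conj, e]⟩
  have l1 := hS.inf_lt hT e
  have l2 := inf_comm T S ▸ hT.inf_lt hS (Ne.symm e)
  obtain ⟨N, hN, n1, n2⟩ : ∃ N, Mem A θ N ∧ S ⊓ T < S ⊓ N ∧ S ⊓ T < T ⊓ N := by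
    by_cases h0 : S ⊓ T = ⊥
    · rw [h0] at l1 l2 ⊢
      obtain ⟨B, b1, b2, b3⟩ := exists_hyper h.sq hS.mem.norm hS.mem.odd l1.ne'
      obtain ⟨B', c1, c2, c3⟩ := exists_hyper h.sq hT.mem.norm hT.mem.odd l2.ne'
      obtain ⟨a, ha, a1⟩ := exists_mem_ne_one (exists_ne_one_mem_inf h.sq
        (le_trans (by norm_num) h.big) b1 c1 b2 c2)
      refine ⟨θ a, h.mem (b1 ha.1) a1, bot_lt_iff_ne_bot.2 (ne_bot_of_le b3 ?_),
        bot_lt_iff_ne_bot.2 (ne_bot_of_le c3 ?_)⟩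
      · exact le_inf inf_le_left ((inf_le_inf_left _ (cent_le_cent1 ha.1)).trans
          (hS.mem.le a (b1 ha.1) a1))
      · exact le_inf inf_le_left ((inf_le_inf_left _ (cent_le_cent1 ha.2)).trans
          (hT.mem.le a (b1 ha.1) a1))
    · have hI := hS.mem.inf hT.mem.norm
      have hI' := hI.norm.trans (norm_le_norm_norm _)
      exact ⟨_, hl _ hI h0, (lt_inf_norm hq hS.pg l1).trans_le (le_inf inf_le_left
        ((hS.mem.inf hI').le_nN inf_le_right)), (lt_inf_norm hq hT.pg l2).trans_le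
          (le_inf inf_le_left ((hT.mem.inf hI').le_nN inf_le_right))⟩
  obtain ⟨P, p1, p2, p3⟩ := hN.exists_sylow h.sq hq inf_le_right (hS.pg.to_le inf_le_left)
    (hS.mem.inf hN.norm).norm
  obtain ⟨Q, q1, q2, q3⟩ := hN.exists_sylow h.sq hq inf_le_right (hT.pg.to_le inf_le_left)
    (hT.mem.inf hN.norm).norm
  haveI := Fact.mk hq
  obtain ⟨c, c1, rfl⟩ := B1.coprime_hall_trans hN.norm (h.sq.cop hN.odd).symm hN.sol
    (sylow_hall hq p1) p3.norm (sylow_hall hq q1) q3.norm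
  have c2 := hN.le_dd c1
  obtain ⟨U, hU, u1⟩ := p3.exists_mx p1.isPGroup
  have lt : ∀ {X Y : Subgroup G}, S ⊓ T < X → X ≤ Y → Nat.card G - #|Y| < n := fun {X Y} a b => by
    have := card_lt_of_lt (a.trans_le b)
    have := card_le_card_group Y
    omega
  obtain ⟨d, d1, d2⟩ := ih _ (lt n1 (le_inf inf_le_left (p2.trans u1))) hS hU rfl
  obtain ⟨d', d3, d4⟩ := ih _ (lt n2 (le_inf (q2.trans (conj_mono c u1)) inf_le_left))
    (hU.conj c2) hT rfl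
  exact ⟨d' * c * d, mul_mem (mul_mem d3 c2) d1, by rw [mul_conj, mul_conj, d2, d4]⟩

theorem Mx.sylow (h : SF A θ) (hl : Loc A θ) (hq : q.Prime) (hS : Mx A θ q S) {a : G} (ha : a ∈ A)
    (a1 : a ≠ 1) : IsSylowIn q (S ⊓ θ a) (θ a) := by
  obtain ⟨P, p1, -, p3⟩ := (h.mem ha a1).exists_sylow h.sq hq bot_le IsPGroup.of_bot le_norm_bot
  obtain ⟨U, hU, u1⟩ := p3.exists_mx p1.isPGroup
  obtain ⟨d, d1, rfl⟩ := hU.exists_conj h hl hq hS
  have := sylow_conj_mem hq p1 (dd_le ha a1 d1)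
  rwa [this.maximal _ (hS.pg.to_le inf_le_left) (le_inf (conj_mono d u1) this.le) inf_le_right]

/-- the largest `A θ(C(A))`-invariant `π`-subgroup of `θ a` -/
def res (A : Subgroup G) (θ : G → Subgroup G) (π : Set ℕ) (a : G) : Subgroup G :=
  sSup {X | X ≤ θ a ∧ A ≤ 𝐍(X) ∧ dd A θ ≤ 𝐍(X) ∧ PiGrp π X}

theorem res_le (π : Set ℕ) (a : G) : res A θ π a ≤ θ a := sSup_le fun _ h => h.1

theorem res_pi (h : SF A θ) (π : Set ℕ) {a : G} (ha : a ∈ A) (a1 : a ≠ 1) :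
    PiGrp π (res A θ π a) := by
  have m := h.mem ha a1
  obtain ⟨K, k1, k2⟩ := B1.exists_invariant_hall m.norm (h.sq.cop m.odd).symm m.sol π
  refine k1.pi.of_le (sSup_le fun X ⟨x1, x2, x3, x4⟩ => ?_)
  obtain ⟨K', k3, k4, k5⟩ := B1.coprime_hall_subset π m.norm (h.sq.cop m.odd).symm m.sol x1 x4 x2
  obtain ⟨c, c1, rfl⟩ := B1.coprime_hall_trans m.norm (h.sq.cop m.odd).symm m.sol k3 k4 k1 k2
  rw [← conj_of_mem_norm (x3 (m.le_dd c1))]
  exact conj_mono c k5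

theorem SF.res (h : SF A θ) (π : Set ℕ) : SF A (res A θ π) := by
  have n1 : ∀ a, A ≤ 𝐍(Sg.res A θ π a) := fun a => le_norm_sSup fun _ h => h.2.1
  have n2 : ∀ a, dd A θ ≤ 𝐍(Sg.res A θ π a) := fun a => le_norm_sSup fun _ h => h.2.2.1
  refine ⟨h.sq, h.big, fun a ha a1 => odd_of_le (h.odd a ha a1) (res_le π a),
    fun a ha a1 => (res_le π a).trans (h.cent a ha a1), fun a _ _ => n1 a,
    fun a ha a1 b hb b1 => le_sSup ⟨(inf_le_inf_right _ (res_le π a)).trans (h.bal a ha a1 b hb b1),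
      le_normalizer_inf (n1 a) ((h.sq.cent1 hb).trans le_normalizer), le_normalizer_inf (n2 a)
        ((inf_le_left.trans (cent_le_cent1 hb)).trans le_normalizer),
      (res_pi h π ha a1).of_le inf_le_left⟩⟩

theorem exists_compl (h : SF A θ) (hq : q.Prime) (hc : Complete A (res A θ {q}ᶜ)) :
    ∃ W, Mem A θ W ∧ PiGrp {q}ᶜ W ∧ ∀ a ∈ A, a ≠ 1 → core {q}ᶜ (θ a) ≤ W := by
  obtain ⟨W, h1, h2⟩ := hc
  refine ⟨W, ⟨h1.odd, h1.norm, fun a ha a1 => (h1.le a ha a1).trans (res_le _ a)⟩, ?_,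
    fun a ha a1 => le_trans ?_ (h2 _ ((h.res _).mem ha a1))⟩
  swap
  · exact le_sSup ⟨core_le _ _, le_norm_core (h.norm a ha a1) _,
      (dd_le ha a1).trans (core_normal _ _).norm, core_pi _ _⟩
  obtain ⟨P, p1, -, p3⟩ := h1.exists_sylow h.sq hq bot_le IsPGroup.of_bot le_norm_bot
  rw [piGrp_compl_iff hq, ← sylow_eq_bot_iff hq p1, ← le_bot_iff]
  refine gen1 h.sq (le_trans (by norm_num) h.big) p3.norm p3.odd fun a ha a1 => ?_
  exact (((piGrp_iff_isPGroup hq).2 (p1.isPGroup.to_le inf_le_left)).eq_bot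
    ((res_pi h _ ha a1).of_le (p3.le a ha a1))).le

end Cfsg.Agent.Sg
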