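import Cfsg.Agent.Sg.SF1

/-! The signalizer functor theorem for elementary abelian `2`-groups of rank at least `4`. -/

set_option autoImplicit false

namespace Cfsg.Agent.Sg

open Subgroup Cfsg.Agent.FT Cfsg.Agent.H1 Cfsg.Agent.L
open scoped Pointwise commutatorElement

universe u

section
variable {G : Type*} [Group G]

local notation "JJ" => thompsonSubgroupAOf
local notation "ZJ" => centerThompsonAOf

/-- the standing hypothesis of the inductive step -/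
structure Ctx (A : Subgroup G) (θ : G → Subgroup G) (q : ℕ) (W : Subgroup G) : Prop where
  sf : SF A θ
  loc : Loc A θ
  hq : q.Prime
  mem : Mem A θ W
  pi : PiGrp {q}ᶜ W
  le : ∀ a ∈ A, a ≠ 1 → core {q}ᶜ (θ a) ≤ W

def uu (θ : G → Subgroup G) (q : ℕ) (B Y : Subgroup G) : Subgroup G :=
  ⨆ b ∈ B, ⨆ _ : b ≠ 1, ⁅core {q}ᶜ (θ b), Y⁆

def MS (A : Subgroup G) (θ : G → Subgroup G) (S : Subgroup G) : Subgroup G :=
  sSup {H | Mem A θ H ∧ JJ S ≤ H}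

variable {A B H K M N R S T U W X Y Z : Subgroup G} {θ : G → Subgroup G} {q : ℕ}

theorem le_uu {b : G} (hb : b ∈ B) (b1 : b ≠ 1) : ⁅core {q}ᶜ (θ b), Y⁆ ≤ uu θ q B Y :=
  le_iSup₂_of_le b hb (le_iSup_of_le b1 le_rfl)

theorem norm_uu (h1 : X ≤ 𝐍(Y)) (h2 : ∀ b ∈ B, b ≠ 1 → X ≤ 𝐍(θ b)) : X ≤ 𝐍(uu θ q B Y) :=
  iSup_norm fun b => iSup_norm fun hb => iSup_norm fun b1 =>
    le_normalizer_commutator (le_norm_core (h2 b hb b1) _) h1

theorem Mem.le_MS (h : Mem A θ H) (hJ : JJ S ≤ H) : H ≤ MS A θ S := le_sSup ⟨h, hJ⟩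

theorem zj_le_J (S : Subgroup G) : ZJ S ≤ JJ S := inf_le_left

theorem J_le_cent (h : Y ≤ ZJ S) : JJ S ≤ 𝐂(Y) := le_cent_symm (h.trans inf_le_right)

variable [Finite G]

theorem cop_q (hq : q.Prime) (hY : IsPGroup q Y) (hK : PiGrp {q}ᶜ K) : (#|Y|).Coprime #|K| :=
  ((piGrp_iff_isPGroup hq).2 hY).coprime' hK

theorem comm_comm_q (hq : q.Prime) (hY : IsPGroup q Y) (hK : PiGrp {q}ᶜ K) (hn : Y ≤ 𝐍(K)) :
    ⁅⁅K, Y⁆, Y⁆ = ⁅K, Y⁆ :=
  commutator_commutator_eq hn (cop_q hq hY hK) (Or.inl (sol_of_pgroup hq hY))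

theorem comm_le_core (hK : K ≤ H) (hπ : PiGrp {q}ᶜ K) (hn : Y ≤ 𝐍(K))
    (hY : Y ≤ core2 {q}ᶜ {q} H) : ⁅K, Y⁆ ≤ core {q}ᶜ H := by
  have h1 := core_hall_core2 {q}ᶜ H
  rw [compl_compl] at h1
  exact h1.le_of_piGrp ((core2_le _ _ _).trans (core_normal _ _).norm)
    ((commutator_mono le_rfl hY).trans ((core2_normal _ _ _).comm_le_right hK))
    (hπ.of_le (comm_le_left hn))

theorem zj_le_core2 (hq : q.Prime) (hH : Odd #|H|) (hP : IsSylowIn q (S ⊓ H) H) :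
    ZJ S ⊓ H ≤ core2 {q}ᶜ {q} H :=
  B6.odd_p_abelian_constrained hq hH (sol_of_odd hH) hP
    (NormalIn.inf_right ⟨H2.centerThompsonA_le S, le_normalizer.trans
      (H2.normalizer_le_normalizer_centerThompsonA S)⟩ H)
    (comm_of_le (comm_iff_le_cent.2 (inf_le_right.trans (cent_anti (zj_le_J S)))) inf_le_left)

theorem Mem.zj (h : Mem A θ S) : Mem A θ (ZJ S) :=
  h.of_le (H2.centerThompsonA_le S) (h.norm.trans (H2.normalizer_le_normalizer_centerThompsonA S))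

theorem Mem.J (h : Mem A θ S) : Mem A θ (JJ S) :=
  h.of_le (H2.thompsonA_le S) (h.norm.trans (H2.normalizer_le_normalizer_thompsonA S))

theorem Ctx.J_eq (h : Ctx A θ q W) (hS : Mx A θ q S) (hR : Mem A θ R) (hp : IsPGroup q R)
    (hJ : JJ S ≤ R) : JJ R = JJ S := by
  obtain ⟨T, hT, h1⟩ := hR.exists_mx hp
  obtain ⟨d, -, rfl⟩ := hS.exists_conj h.sf h.loc h.hq hT
  have h2 : JJ S = JJ (d ⋆ S) := eq_of_le_of_card_le (H2.thompsonA_le_iff.2 fun E hE =>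
    ((hE.map (conj_inj d)).of_card_le (hE.le_thompson.trans (hJ.trans h1)) hE.comm
      (card_conj d E).le).le_thompson) (by rw [← H2.conj_smul_thompsonA, card_conj])
  rw [H2.thompsonA_eq_of_le h1 (h2 ▸ hJ), h2]

/-- factorisation of a `θ`-subgroup containing `J(S)` -/
theorem Ctx.fact (h : Ctx A θ q W) (hS : Mx A θ q S) (hH : Mem A θ H) (hJ : JJ S ≤ H) :
    H ≤ core {q}ᶜ H ⊔ H ⊓ 𝐍(ZJ S) ∧ ZJ S ≤ core2 {q}ᶜ {q} H := by
  obtain ⟨P, p1, p2, p3⟩ := hH.exists_sylow h.sf.sq h.hq hJ (hS.pg.to_le (H2.thompsonA_le S))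
    hS.mem.J.norm
  have e : ZJ P = ZJ S := by unfold centerThompsonAOf; rw [h.J_eq hS p3 p1.isPGroup p2]
  rw [← e]
  refine ⟨(B6.zj_factorisation h.hq hH.odd hH.sol p1).sup.ge, le_trans (le_inf le_rfl
    ((H2.centerThompsonA_le P).trans p1.le)) (zj_le_core2 h.hq hH.odd ?_)⟩
  rwa [inf_eq_left.2 p1.le]

section U
variable (h : Ctx A θ q W) (hS : Mx A θ q S) (hY : Y ≤ ZJ S) (hAY : A ≤ 𝐍(Y)) (hB : B ≤ A)
  (hBY : B ≤ 𝐂(Y))
include h hS hY hAY hB hBY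

theorem Ctx.le_theta {b : G} (hb : b ∈ B) (b1 : b ≠ 1) : Y ≤ θ b :=
  (hS.mem.zj.of_le hY hAY).le_of_cent (hB hb) b1 (le_cent1_iff.2 (hBY hb))

theorem Ctx.comm_le_uu (h4 : 4 ≤ #|B|) (hK : Mem A θ K) (hπ : PiGrp {q}ᶜ K) (hn : Y ≤ 𝐍(K)) :
    ⁅K, Y⁆ ≤ uu θ q B Y := by
  have hp := hS.pg.to_le (hY.trans (H2.centerThompsonA_le S))
  refine comm_gen (h.sf.sq.of_le hB) h4 hBY hK.odd (hB.trans hK.norm) hn (cop_q h.hq hp hπ)
    fun b hb b1 => ?_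
  have h1 : Y ≤ 𝐍(K ⊓ 𝐂[b]) := le_normalizer_inf hn ((le_cent1_iff.2 (hBY hb)).trans le_normalizer)
  rw [← comm_comm_q h.hq hp (hπ.of_le inf_le_left) h1]
  exact (commutator_mono (comm_le_core (hK.le b (hB hb) b1) (hπ.of_le inf_le_left) h1
    ((le_inf hY (h.le_theta hS hY hAY hB hBY hb b1)).trans (zj_le_core2 h.hq (h.sf.odd b (hB hb) b1)
      (hS.sylow h.sf h.loc h.hq (hB hb) b1)))) le_rfl).trans (le_uu hb b1)

theorem Ctx.uu_spec : Mem A θ (uu θ q B Y) ∧ PiGrp {q}ᶜ (uu θ q B Y) ∧ Y ≤ 𝐍(uu θ q B Y) ∧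
    uu θ q B Y ≤ ⁅uu θ q B Y, Y⁆ := by
  have h1 : ∀ b ∈ B, b ≠ 1 → Y ≤ 𝐍(θ b) := fun b hb b1 =>
    (h.le_theta hS hY hAY hB hBY hb b1).trans le_normalizer
  have h2 : uu θ q B Y ≤ W := iSup₂_le fun b hb => iSup_le fun b1 =>
    (comm_le_left (le_norm_core (h1 b hb b1) _)).trans (h.le b (hB hb) b1)
  refine ⟨h.mem.of_le h2 (norm_uu hAY fun b hb b1 => h.sf.norm b (hB hb) b1), h.pi.of_le h2,
    norm_uu le_normalizer h1, iSup₂_le fun b hb => iSup_le fun b1 => ?_⟩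
  rw [← comm_comm_q h.hq (hS.pg.to_le (hY.trans (H2.centerThompsonA_le S))) (core_pi _ _)
    (le_norm_core (h1 b hb b1) _)]
  exact commutator_mono (le_uu hb b1) le_rfl

omit hS hY hAY hBY in
theorem Ctx.cent_norm_uu (hN : Mem A θ N) (hn : N ⊓ 𝐂(B) ≤ 𝐍(Y)) : N ⊓ 𝐂(B) ≤ 𝐍(uu θ q B Y) :=
  norm_uu hn fun b hb b1 => ((inf_le_inf_left _ (cent_le_cent1 hb)).trans
    (hN.le b (hB hb) b1)).trans le_normalizer

theorem Ctx.exists_M (h8 : 8 ≤ #|B|) (h1 : Y ≠ ⊥) : ∃ M, Mem A θ M ∧ (∀ H, Mem A θ H → M ≤ H → H = M) ∧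
    JJ S ≤ M ∧ ∀ K, Mem A θ K → PiGrp {q}ᶜ K → Y ≤ 𝐍(K) → K ≤ M := by
  have hN := h.loc Y (hS.mem.zj.of_le hY hAY) h1
  obtain ⟨u1, u2, u3, u4⟩ := h.uu_spec hS hY hAY hB hBY
  have h2 : nN A θ Y ≤ 𝐍(uu θ q B Y) := gen2 (h.sf.sq.of_le hB) (hB.trans hN.norm) hN.odd
    fun B' b1 b2 => by
      obtain ⟨v1, v2, v3, v4⟩ := h.uu_spec hS hY hAY (b1.trans hB) (b1.trans hBY)
      rw [le_antisymm (u4.trans (h.comm_le_uu hS hY hAY (b1.trans hB) (b1.trans hBY) (by omega)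
        u1 u2 u3)) (v4.trans (h.comm_le_uu hS hY hAY hB hBY (by omega) v1 v2 v3))]
      exact h.cent_norm_uu (b1.trans hB) hN (inf_le_left.trans nN_le)
  obtain ⟨M, ⟨m1, m2⟩, m3⟩ := wellFounded_gt.has_min
    {M | Mem A θ M ∧ nN A θ Y ⊔ uu θ q B Y ≤ M} ⟨_, hN.sup h.sf.sq u1 h2, le_rfl⟩
  refine ⟨M, m1, fun H a b => (b.eq_of_not_lt (m3 H ⟨a, m2.trans b⟩)).symm,
    (hS.mem.J.le_nN (le_norm_of_le_cent (J_le_cent hY))).trans (le_sup_left.trans m2),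
    fun K k1 k2 k3 => le_trans ?_ m2⟩
  have hp := hS.pg.to_le (hY.trans (H2.centerThompsonA_le S))
  rw [← commutator_sup_centralizer k3 (cop_q h.hq hp k2) (Or.inr k1.sol), sup_comm]
  exact sup_le_sup ((k1.inf (le_norm_cent hAY)).le_nN (le_norm_of_le_cent inf_le_right))
    (h.comm_le_uu hS hY hAY hB hBY (by omega) k1 k2 k3)

end U

theorem Ctx.le_of_core (h : Ctx A θ q W) (hS : Mx A θ q S) (hY : Y ≤ ZJ S) (h1 : Y ≠ ⊥)
    (hM : Mem A θ M) (hmax : ∀ H, Mem A θ H → M ≤ H → H = M) (hJ : JJ S ≤ M)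
    (hK : ∀ K, Mem A θ K → PiGrp {q}ᶜ K → Y ≤ 𝐍(K) → K ≤ M) (hH : Mem A θ H) (hJH : JJ S ≤ H)
    (hc : core {q}ᶜ M ≤ H) : H ≤ M := by
  have hp := hS.pg.to_le (H2.centerThompsonA_le S)
  obtain ⟨m1, m2⟩ := h.fact hS hM hJ
  obtain ⟨h2, h3⟩ := h.fact hS hH hJH
  have n1 : ZJ S ≤ 𝐍(core {q}ᶜ M) := ((zj_le_J S).trans hJ).trans (core_normal _ _).norm
  have n2 : ZJ S ≤ 𝐍(core {q}ᶜ H) := ((zj_le_J S).trans hJH).trans (core_normal _ _).norm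
  have e : ⁅core {q}ᶜ H, ZJ S⁆ = ⁅core {q}ᶜ M, ZJ S⁆ := by
    refine le_antisymm ?_ ?_
    · rw [← comm_comm_q h.hq hp (core_pi _ H) n2]
      exact commutator_mono (comm_le_core (hK _ (hH.core _) (core_pi _ _) (hY.trans n2))
        (core_pi _ _) n2 m2) le_rfl
    · rw [← comm_comm_q h.hq hp (core_pi _ M) n1]
      exact commutator_mono (comm_le_core hc (core_pi _ _) n1 h3) le_rfl
  have key : ∀ X, Mem A θ X → X ≠ ⊥ → M ≤ 𝐍(X) → H ≤ 𝐍(X) → H ≤ M := fun X a b c d =>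
    (hH.le_nN d).trans (hmax _ (h.loc X a b) (hM.le_nN c)).le
  by_cases h0 : ⁅core {q}ᶜ M, ZJ S⁆ = ⊥
  · exact key _ hS.mem.zj (ne_bot_of_le h1 hY)
      (m1.trans (sup_le (le_norm_of_le_cent (comm_eq_bot_iff.1 h0)) inf_le_right))
      (h2.trans (sup_le (le_norm_of_le_cent (comm_eq_bot_iff.1 (e.trans h0))) inf_le_right))
  · refine key _ ((hM.core _).of_le (comm_le_left n1) (le_normalizer_commutator (hM.core _).norm
      hS.mem.zj.norm)) h0 (m1.trans (sup_le (left_le_norm_comm _ _) (le_normalizer_commutator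
        (inf_le_left.trans (core_normal _ _).norm) inf_le_right))) ?_
    rw [← e]
    exact h2.trans (sup_le (left_le_norm_comm _ _) (le_normalizer_commutator
      (inf_le_left.trans (core_normal _ _).norm) inf_le_right))

theorem Ctx.MS_spec (h : Ctx A θ q W) (hS : Mx A θ q S) (hY : Y ≤ ZJ S) (hAY : A ≤ 𝐍(Y))
    (h1 : Y ≠ ⊥) : Mem A θ (MS A θ S) ∧
      ∀ K, Mem A θ K → PiGrp {q}ᶜ K → Y ≤ 𝐍(K) → K ≤ MS A θ S := by
  obtain ⟨B, hB, b2, b3⟩ := exists_hyper h.sf.sq hAY (hS.mem.zj.of_le hY hAY).odd h1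
  have nB : ∀ {B : Subgroup G}, B ≤ A → A ≤ 𝐍(𝐂(B)) := fun hB =>
    (le_cent_of_le h.sf.sq.cent hB).trans le_normalizer
  have h8 : 8 ≤ #|B| := by have := h.sf.big; omega
  have y1 : Y ⊓ 𝐂(B) ≤ ZJ S := inf_le_left.trans hY
  obtain ⟨M, hM, hmax, hJ, hK⟩ := h.exists_M hS y1 (le_normalizer_inf hAY (nB hB)) hB
    (le_cent_symm inf_le_right) h8 b3
  have key := fun H => h.le_of_core (H := H) hS y1 b3 hM hmax hJ hK
  have hL := h.loc _ hS.mem.zj (ne_bot_of_le h1 hY)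
  have hp := hS.pg.to_le (H2.centerThompsonA_le S)
  have l1 : nN A θ (ZJ S) ≤ M := gen2 (h.sf.sq.of_le hB) (hB.trans hL.norm) hL.odd fun B' c1 c2 => by
    have z1 : ZJ S ⊓ 𝐂(B') ≤ ZJ S := inf_le_left
    have z2 := le_normalizer_inf hS.mem.zj.norm (nB (c1.trans hB))
    have z3 : B' ≤ 𝐂(ZJ S ⊓ 𝐂(B')) := le_cent_symm inf_le_right
    have z4 : Y ⊓ 𝐂(B) ≤ ZJ S ⊓ 𝐂(B') := inf_le_inf hY (cent_anti c1)
    have z5 : nN A θ (ZJ S) ⊓ 𝐂(B') ≤ 𝐍(ZJ S ⊓ 𝐂(B')) :=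
      le_normalizer_inf (inf_le_left.trans nN_le) (inf_le_right.trans le_normalizer)
    obtain ⟨u1, u2, u3, u4⟩ := h.uu_spec hS z1 z2 (c1.trans hB) z3
    have n1 : JJ S ≤ 𝐍(core {q}ᶜ M) := hJ.trans (core_normal _ _).norm
    have n2 := (z1.trans (zj_le_J S)).trans n1
    have e : uu θ q B' (ZJ S ⊓ 𝐂(B')) = ⁅core {q}ᶜ M, ZJ S ⊓ 𝐂(B')⁆ :=
      le_antisymm (u4.trans (commutator_mono (u4.trans (comm_le_core (hK _ u1 u2 (z4.trans u3))
        u2 u3 (z1.trans (h.fact hS hM hJ).2))) le_rfl))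
        (h.comm_le_uu hS z1 z2 (c1.trans hB) z3 (by omega) (hM.core _) (core_pi _ _) n2)
    have fin : ∀ X, Mem A θ X → X ≠ ⊥ → JJ S ≤ 𝐍(X) → core {q}ᶜ M ≤ 𝐍(X) →
        nN A θ (ZJ S) ⊓ 𝐂(B') ≤ 𝐍(X) → nN A θ (ZJ S) ⊓ 𝐂(B') ≤ M := fun X a b c d e =>
      ((hL.inf (nB (c1.trans hB))).le_nN e).trans
        (key _ (h.loc X a b) (hS.mem.J.le_nN c) ((hM.core _).le_nN d))
    by_cases h0 : uu θ q B' (ZJ S ⊓ 𝐂(B')) = ⊥
    · exact fin _ (hS.mem.zj.of_le z1 z2) (ne_bot_of_le b3 z4) (le_norm_of_le_cent (J_le_cent z1))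
        (le_norm_of_le_cent (comm_eq_bot_iff.1 (e.symm.trans h0))) z5
    · exact fin _ u1 h0 (e ▸ le_normalizer_commutator n1 (le_norm_of_le_cent (J_le_cent z1)))
        (e ▸ left_le_norm_comm _ _) (h.cent_norm_uu (c1.trans hB) hL z5)
  have e : MS A θ S = M := le_antisymm (sSup_le fun H ⟨a, b⟩ => (h.fact hS a b).1.trans (sup_le
    (hK _ (a.core _) (core_pi _ _) (((y1.trans (zj_le_J S)).trans b).trans (core_normal _ _).norm))
    (((a.inf (hS.mem.zj.norm.trans (norm_le_norm_norm _))).le_nN inf_le_right).trans l1)))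
    (hM.le_MS hJ)
  rw [e]
  exact ⟨hM, fun K a b c => hK K a b (inf_le_left.trans c)⟩

theorem Ctx.push (h : Ctx A θ q W) (hS : Mx A θ q S) (hY : Y ≤ ZJ S) (hAY : A ≤ 𝐍(Y)) (h1 : Y ≠ ⊥)
    (hYR : Y ≤ R) (hR : Mem A θ R) (hp : IsPGroup q R)
    (hT : ∀ T, Mx A θ q T → R ≤ T → MS A θ T = MS A θ S) (hH : Mem A θ H) (hRH : R ≤ H) :
    H ≤ MS A θ S := by
  obtain ⟨P, p1, p2, p3⟩ := hH.exists_sylow h.sf.sq h.hq hRH hp hR.norm
  clear hRH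
  induction hn : Nat.card G - #|P| using Nat.strong_induction_on generalizing H P with
  | _ n ih =>
  obtain ⟨T, t1, t2⟩ := p3.exists_mx p1.isPGroup
  rcases t2.eq_or_lt with rfl | lt
  · exact (hH.le_MS ((H2.thompsonA_le P).trans p1.le)).trans (hT P t1 p2).le
  obtain ⟨z1, -, z2⟩ := B6.zj_ne_bot h.hq p1.isPGroup (ne_bot_of_le h1 (hYR.trans p2))
  have hN := h.loc _ p3.zj z1
  have h2 := t1.mem.inf (p3.norm.trans (norm_le_norm_norm _))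
  obtain ⟨Q, q1, q2, q3⟩ := hN.exists_sylow h.sf.sq h.hq (h2.le_nN (inf_le_right.trans z2))
    (t1.pg.to_le inf_le_left) h2.norm
  have h3 := (lt_inf_norm h.hq t1.pg lt).trans_le q2
  refine (B6.zj_factorisation h.hq hH.odd hH.sol p1).sup.ge.trans (sup_le
    ((h.MS_spec hS hY hAY h1).2 _ (hH.core _) (core_pi _ _) (((hYR.trans p2).trans p1.le).trans
      (core_normal _ _).norm)) (((hH.inf (p3.zj.norm.trans (norm_le_norm_norm _))).le_nN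
        inf_le_right).trans (ih _ ?_ hN Q q1 (p2.trans h3.le) q3 rfl)))
  have := card_lt_of_lt h3
  have := card_le_card_group Q
  omega

theorem Ctx.MS_eq (h : Ctx A θ q W) {a : G} (ha : a ∈ A) (a1 : a ≠ 1) (h0 : core {q} (θ a) ≠ ⊥)
    (hS : Mx A θ q S) (hT : Mx A θ q T) : MS A θ S = MS A θ T := by
  induction hn : Nat.card G - #|S ⊓ T| using Nat.strong_induction_on generalizing S T with
  | _ n ih =>
  by_cases e : S = T
  · rw [e]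
  have c : ∀ {S : Subgroup G}, Mx A θ q S → core {q} (θ a) ≤ S := fun hS =>
    (sylow_core_le h.hq (hS.sylow h.sf h.loc h.hq ha a1)).trans inf_le_left
  have hI := hS.mem.inf hT.mem.norm
  have hI' := hI.norm.trans (norm_le_norm_norm _)
  have hN := h.loc _ hI (ne_bot_of_le h0 (le_inf (c hS) (c hT)))
  have key : ∀ {U : Subgroup G}, Mx A θ q U → S ⊓ T < U → Mem A θ (MS A θ U) ∧
      U ⊓ 𝐍(S ⊓ T) ≤ nN A θ (S ⊓ T) ∧ ∀ H, Mem A θ H → U ⊓ 𝐍(S ⊓ T) ≤ H → H ≤ MS A θ U := by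
    intro U hU lt
    have y1 : zent U ≤ ZJ U := H2.center_le_centerThompsonA U
    have y2 := hU.mem.norm.trans (norm_le_norm_zent U)
    have y3 := zent_ne_bot (pgroup_nil h.hq hU.pg) (ne_bot_of_le h0 (c hU))
    refine ⟨(h.MS_spec hU y1 y2 y3).1, (hU.mem.inf hI').le_nN inf_le_right, fun H =>
      h.push hU y1 y2 y3 (le_inf (zent_le U) (le_norm_of_le_cent (le_cent_of_le (zent_le_cent U)
        lt.le))) (hU.mem.inf hI') (hU.pg.to_le inf_le_left) fun V hV hle => ih _ ?_ hV hU rfl⟩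
    have := card_lt_of_lt ((lt_inf_norm h.hq hU.pg lt).trans_le (le_inf hle inf_le_left))
    have := card_le_card_group (V ⊓ U)
    omega
  obtain ⟨s1, s2, s3⟩ := key hS (hS.inf_lt hT e)
  obtain ⟨t1, t2, t3⟩ := key hT (inf_comm T S ▸ hT.inf_lt hS (Ne.symm e))
  exact le_antisymm (t3 _ s1 (t2.trans (s3 _ hN s2))) (s3 _ t1 (s2.trans (t3 _ hN t2)))

theorem Ctx.complete (h : Ctx A θ q W) {a : G} (ha : a ∈ A) (a1 : a ≠ 1) (h0 : core {q} (θ a) ≠ ⊥) :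
    Complete A θ := by
  obtain ⟨S, hS, s1⟩ := ((h.sf.mem ha a1).core {q}).exists_mx (core_pgroup h.hq _)
  obtain ⟨z1, z2, -⟩ := B6.zj_ne_bot h.hq hS.pg (ne_bot_of_le h0 s1)
  obtain ⟨B, hB, b2, b3⟩ := exists_hyper h.sf.sq hS.mem.zj.norm hS.mem.zj.odd z1
  have y := hS.mem.zj.inf ((le_cent_of_le h.sf.sq.cent hB).trans le_normalizer)
  refine ⟨_, (h.MS_spec hS le_rfl hS.mem.zj.norm z1).1, fun X hX => hX.le_of h.sf.sq hB
    (by have := h.sf.big; omega) fun b hb b1 => h.push hS inf_le_left y.norm b3 le_rfl y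
      (hS.pg.to_le (inf_le_left.trans z2)) (fun T hT _ => h.MS_eq ha a1 h0 hT hS)
      (h.sf.mem (hB hb) b1) (y.le_of_cent (hB hb) b1 (inf_le_right.trans (cent_le_cent1 hb)))⟩

end

theorem complete_aux (n : ℕ) : ∀ {G : Type u} [Group G] [Finite G], Nat.card G = n →
    ∀ {A : Subgroup G} {θ : G → Subgroup G}, SF A θ → Complete A θ := by
  induction n using Nat.strong_induction_on with
  | _ n ih =>
  intro G _ _ hn A θ h
  induction hm : {x : G × G | x.1 ∈ A ∧ x.1 ≠ 1 ∧ x.2 ∈ θ x.1}.ncard using Nat.strong_induction_on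
    generalizing θ with
  | _ m ih2 =>
  by_cases h0 : ∀ a ∈ A, a ≠ 1 → θ a = ⊥
  · exact ⟨⊥, Mem.bot, fun X hX => hX.le_of h.sq le_rfl (le_trans (by norm_num) h.big)
      fun a ha a1 => (h0 a ha a1).le⟩
  push Not at h0
  obtain ⟨a, ha, a1, h0⟩ := h0
  obtain ⟨q, hq, h1⟩ := exists_core_ne_bot (h.mem ha a1).sol h0
  obtain ⟨W, w1, w2, w3⟩ := exists_compl h hq (ih2 _ (hm ▸ Set.ncard_lt_ncard ⟨fun x hx =>
    ⟨hx.1, hx.2.1, res_le _ _ hx.2.2⟩, fun hs => h1 (PiGrp.eq_bot (core_pi _ _)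
      ((res_pi h _ ha a1).of_le fun x hx => (hs (a := (a, x)) ⟨ha, a1, core_le _ _ hx⟩).2.2))⟩)
    (h.res _) rfl)
  refine Ctx.complete ⟨h, fun X hX x1 => mem_nN h hX fun θ' h' => ih _ ?_ rfl h', hq, w1, w2, w3⟩
    ha a1 h1
  have := card_quo_lt (NormalIn.self_norm X) x1
  rw [quo_norm, card_top] at this
  exact this.trans_le (hn ▸ card_le_card_group _)

/-- **Signalizer functor theorem**, rank at least `4`. -/
theorem SF.complete {G : Type*} [Group G] [Finite G] {A : Subgroup G} {θ : G → Subgroup G}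
    (h : SF A θ) : Complete A θ := complete_aux _ rfl h

end Cfsg.Agent.Sg
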